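import Cfsg.Agent.Lib.Helper97.KLin

/-!
# An `F`-transvection in an overgroup of `klG K` gives the special linear group

Helper library (helper96) for S5886 (piece P-T of helper97's plan): if a subgroup `M` of
`GL (Fin n) F` contains the group `klG K` of `K`-linear maps of determinant one (for a field
subalgebra `K` of degree `1 < r < n`) and one non-trivial `F`-transvection, then `M` contains the
special linear group.
-/

set_option autoImplicit false

namespace Cfsg.Agent.Lib.Helper96.KLinT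

open Matrix Cfsg.Agent.Lib.Helper97

variable {F : Type*} [Field F] [Fintype F] {n : ℕ} {K : Subalgebra F (Matrix (Fin n) (Fin n) F)}

omit [Fintype F] in
/-- Vectors with the same dot products are equal. -/
lemma vec_ext_dot {φ φ' : Fin n → F} (h : ∀ v : Fin n → F, φ ⬝ᵥ v = φ' ⬝ᵥ v) : φ = φ' := by
  funext i
  have := h (Pi.single i 1)
  simpa using this

omit [Fintype F] in
lemma TM_zero (M : Subgroup (GL (Fin n) F)) (w : Fin n → F) : TM M w 0 := by
  refine ⟨zero_dotProduct w, fun t ht => ?_⟩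
  have : t = 1 := Units.ext (by rw [ht, tv_zero_right, Units.val_one])
  rw [this]; exact M.one_mem

omit [Fintype F] in
/-- Conjugating a transvection with centre `w` by an element of `M` fixing `w`. -/
lemma TM_conj_fix {M : Subgroup (GL (Fin n) F)} {w ψ φ : Fin n → F} (h : TM M w ψ)
    {g : GL (Fin n) F} (hg : g ∈ M) (hgw : (g : Matrix (Fin n) (Fin n) F) *ᵥ w = w)
    (hφ : ∀ v : Fin n → F, φ ⬝ᵥ v = ψ ⬝ᵥ ((g : Matrix (Fin n) (Fin n) F) *ᵥ v)) : TM M w φ := by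
  have h1 := TM_conj h hg
  have h2 : ((g⁻¹ : GL (Fin n) F) : Matrix (Fin n) (Fin n) F) *ᵥ w = w := by
    conv_lhs => rw [← hgw]
    rw [Matrix.mulVec_mulVec, ← Units.val_mul, inv_mul_cancel, Units.val_one, Matrix.one_mulVec]
  rw [h2] at h1
  have h4 : φ = ψ ᵥ* (g : Matrix (Fin n) (Fin n) F) := by
    apply vec_ext_dot
    intro v
    rw [hφ, Matrix.dotProduct_mulVec]
  rw [h4]; exact h1

omit [Fintype F] in
/-- The difference of a conjugate (by an element fixing the centre) and the transvection. -/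
lemma TM_conj_diff {M : Subgroup (GL (Fin n) F)} {w ψ φ : Fin n → F} (h : TM M w ψ)
    {g : GL (Fin n) F} (hg : g ∈ M) (hgw : (g : Matrix (Fin n) (Fin n) F) *ᵥ w = w)
    (hφ : ∀ v : Fin n → F, φ ⬝ᵥ v = ψ ⬝ᵥ ((g : Matrix (Fin n) (Fin n) F) *ᵥ v) - ψ ⬝ᵥ v) :
    TM M w φ := by
  have h1 : TM M w (ψ ᵥ* (g : Matrix (Fin n) (Fin n) F)) :=
    TM_conj_fix h hg hgw (fun v => (Matrix.dotProduct_mulVec _ _ _).symm)
  have h3 := TM_sub h1 h
  have h4 : φ = ψ ᵥ* (g : Matrix (Fin n) (Fin n) F) - ψ := by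
    apply vec_ext_dot
    intro v
    rw [hφ, sub_dotProduct, Matrix.dotProduct_mulVec]
  rw [h4]; exact h3

omit [Fintype F] in
/-- Precomposition of a `K`-functional with a `K`-linear map. -/
def kcomp (π : KFun K) (g : GL (Fin n) F) (hg : g ∈ klG K) : KFun K :=
  ⟨π.toLin ∘ₗ Matrix.mulVecLin (g : Matrix (Fin n) (Fin n) F), fun k v => by
    show π ((g : Matrix (Fin n) (Fin n) F) *ᵥ ((k : Matrix (Fin n) (Fin n) F) *ᵥ v)) =
      k * π ((g : Matrix (Fin n) (Fin n) F) *ᵥ v)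
    rw [klG_mulVec hg, π.map_k]⟩

omit [Fintype F] in
lemma kcomp_apply (π : KFun K) (g : GL (Fin n) F) (hg : g ∈ klG K) (v : Fin n → F) :
    kcomp π g hg v = π ((g : Matrix (Fin n) (Fin n) F) *ᵥ v) := rfl

omit [Fintype F] in
/-- The `F`-functional `c ↦ ψ ⬝ᵥ (c u)` on `K`. -/
def dotAct (K : Subalgebra F (Matrix (Fin n) (Fin n) F)) (ψ u : Fin n → F) : ↥K →ₗ[F] F where
  toFun c := ψ ⬝ᵥ ((c : Matrix (Fin n) (Fin n) F) *ᵥ u)
  map_add' a b := by
    rw [Subalgebra.coe_add, Matrix.add_mulVec, dotProduct_add]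
  map_smul' a c := by
    rw [Subalgebra.coe_smul, Matrix.smul_mulVec, dotProduct_smul, RingHom.id_apply]

omit [Fintype F] in
lemma dotAct_apply (ψ u : Fin n → F) (c : ↥K) :
    dotAct K ψ u c = ψ ⬝ᵥ ((c : Matrix (Fin n) (Fin n) F) *ᵥ u) := rfl

/-- Some `(q - 1)`-th power in `K` is not `1`. -/
lemma exists_pow_ne_one {r : ℕ} (hK : Cfsg.Geo.IsFieldSubalgebra r K) (hr : 1 < r)
    [Nonempty (Fin n)] : ∃ k₀ : ↥K, k₀ ≠ 0 ∧ k₀ ^ (Fintype.card F - 1) ≠ 1 := by
  by_contra hcon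
  push Not at hcon
  have hS := fs_subring_eq_top hK hr (algebraMap F ↥K).range (fun k hk => by
    rw [hcon k hk]; exact Subring.one_mem _)
  have hle : Module.finrank F ↥K ≤ 1 := by
    apply finrank_le_one (1 : ↥K)
    intro k
    have hk : k ∈ (algebraMap F ↥K).range := by rw [hS]; exact Subring.mem_top k
    obtain ⟨c, hc⟩ := hk
    exact ⟨c, by rw [← hc, Algebra.algebraMap_eq_smul_one]⟩
  rw [hK.finrank_eq] at hle
  omega

/-- Step 2a: all `K`-multiples of `π₀`. -/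
lemma step2a {r : ℕ} (hK : Cfsg.Geo.IsFieldSubalgebra r K) (hr : 1 < r) [Nonempty (Fin n)]
    (M : Subgroup (GL (Fin n) F)) (hM : klG K ≤ M) (w v₁ : Fin n → F) (β : ↥K →ₗ[F] F)
    (π₀ : KFun K) (h0 : π₀ w = 0) (h1 : π₀ v₁ = 1) (h : TM M w (kf β π₀)) (c : ↥K) :
    TM M w (kf β (π₀.smul hK.comm c)) := by
  let A : AddSubgroup ↥K :=
    { carrier := {c | TM M w (kf β (π₀.smul hK.comm c))}
      add_mem' := fun {a b} ha hb => by
        have e : kf β (π₀.smul hK.comm (a + b)) =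
            kf β (π₀.smul hK.comm a) + kf β (π₀.smul hK.comm b) := by
          apply vec_ext_dot; intro v
          rw [add_dotProduct, kf_dot, kf_dot, kf_dot, KFun.smul_apply, KFun.smul_apply,
            KFun.smul_apply, add_mul, map_add]
        show TM M w _
        rw [e]; exact TM_add ha hb
      zero_mem' := by
        have e : kf β (π₀.smul hK.comm 0) = 0 := by
          apply vec_ext_dot; intro v
          rw [zero_dotProduct, kf_dot, KFun.smul_apply, zero_mul, map_zero]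
        show TM M w _
        rw [e]; exact TM_zero M w
      neg_mem' := fun {a} ha => by
        have e : kf β (π₀.smul hK.comm (-a)) = -kf β (π₀.smul hK.comm a) := by
          apply vec_ext_dot; intro v
          rw [neg_dotProduct, kf_dot, kf_dot, KFun.smul_apply, KFun.smul_apply, ← map_neg]
          congr 1
          exact neg_mul a (π₀ v)
        show TM M w _
        rw [e]; exact TM_neg ha }
  have hA1 : (1 : ↥K) ∈ A := by
    show TM M w _
    have e : kf β (π₀.smul hK.comm 1) = kf β π₀ := by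
      apply vec_ext_dot; intro v
      rw [kf_dot, kf_dot, KFun.smul_apply, one_mul]
    rw [e]; exact h
  have hA : ∀ k : ↥K, k ≠ 0 → ∀ c ∈ A, k ^ (Fintype.card F - 1) * c ∈ A := by
    intro k hk c hc
    obtain ⟨g, hg, hgv⟩ := exists_tor hK v₁ π₀ h1 k hk
    have hgw : (g : Matrix (Fin n) (Fin n) F) *ᵥ w = w := by
      rw [hgv, h0, mul_zero, ZeroMemClass.coe_zero, Matrix.zero_mulVec, add_zero]
    show TM M w _
    refine TM_conj_fix (show TM M w (kf β (π₀.smul hK.comm c)) from hc) (hM hg) hgw ?_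
    intro v
    rw [kf_dot, kf_dot, KFun.smul_apply, KFun.smul_apply, hgv, π₀.map_add, π₀.map_k, h1, mul_one]
    congr 1
    have hcomm : c * k ^ (Fintype.card F - 1) = k ^ (Fintype.card F - 1) * c :=
      Subtype.ext (hK.comm _ c.2 _ (k ^ (Fintype.card F - 1)).2)
    have e1 : π₀ v + (k ^ (Fintype.card F - 1) - 1) * π₀ v = k ^ (Fintype.card F - 1) * π₀ v := by
      rw [sub_mul, one_mul, add_sub_cancel]
    rw [e1, ← mul_assoc, hcomm]
  have := fs_addSubgroup_mul hK hr A hA c 1 hA1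
  rw [mul_one] at this
  exact this

/-- Step 2: all `K`-functionals vanishing at the centre `w`. -/
lemma step2 {r : ℕ} (hK : Cfsg.Geo.IsFieldSubalgebra r K) (hr : 1 < r) [Nonempty (Fin n)]
    (M : Subgroup (GL (Fin n) F)) (hM : klG K ≤ M) (w v₁ : Fin n → F) (β : ↥K →ₗ[F] F)
    (π₀ : KFun K) (h0 : π₀ w = 0) (h1 : π₀ v₁ = 1) (h : TM M w (kf β π₀))
    (π : KFun K) (hπ : π w = 0) : TM M w (kf β π) := by
  have hA := step2a hK hr M hM w v₁ β π₀ h0 h1 h (π v₁)
  let π' : KFun K := π.sub (π₀.smul hK.comm (π v₁))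
  have hπ'w : π' w = 0 := by
    show π w - π v₁ * π₀ w = 0
    rw [hπ, h0, mul_zero, sub_zero]
  have hπ'v : π' v₁ = 0 := by
    show π v₁ - π v₁ * π₀ v₁ = 0
    rw [h1, mul_one, sub_self]
  have hB : TM M w (kf β π') := by
    have hg := hM (ktG_mem v₁ π' hπ'v)
    refine TM_conj_diff h hg ?_ ?_
    · rw [ktG_mulVec, hπ'w, ZeroMemClass.coe_zero, Matrix.zero_mulVec, add_zero]
    · intro v
      rw [kf_dot, kf_dot, kf_dot, ktG_mulVec, π₀.map_add, π₀.map_k, h1, mul_one, map_add,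
        add_sub_cancel_left]
  have e : kf β π = kf β π' + kf β (π₀.smul hK.comm (π v₁)) := by
    apply vec_ext_dot; intro v
    rw [add_dotProduct, kf_dot, kf_dot, kf_dot, ← map_add]
    congr 1
    show π v = π v - π v₁ * π₀ v + π v₁ * π₀ v
    rw [sub_add_cancel]
  rw [e]; exact TM_add hB hA

/-- Step 3: all centres. -/
lemma step3 {r : ℕ} (hK : Cfsg.Geo.IsFieldSubalgebra r K) (hr : 1 < r) (hn : r < n)
    (M : Subgroup (GL (Fin n) F)) (hM : klG K ≤ M) (w v₁ : Fin n → F) (hw : w ≠ 0)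
    (β : ↥K →ₗ[F] F) (π₀ : KFun K) (h0 : π₀ w = 0) (h1 : π₀ v₁ = 1) (h : TM M w (kf β π₀))
    (w' : Fin n → F) (hw' : w' ≠ 0) (π' : KFun K) (hπ' : π' w' = 0) : TM M w' (kf β π') := by
  have : Nonempty (Fin n) := ⟨⟨0, by omega⟩⟩
  obtain ⟨g, hg, hgw⟩ := exists_klG_map hK hn w' w hw' hw
  have hgi : g⁻¹ ∈ klG K := (klG K).inv_mem hg
  have hgiw : ((g⁻¹ : GL (Fin n) F) : Matrix (Fin n) (Fin n) F) *ᵥ w = w' := by
    rw [← hgw, Matrix.mulVec_mulVec, ← Units.val_mul, inv_mul_cancel, Units.val_one,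
      Matrix.one_mulVec]
  let π : KFun K := kcomp π' g⁻¹ hgi
  have hπw : π w = 0 := by
    show π' (((g⁻¹ : GL (Fin n) F) : Matrix (Fin n) (Fin n) F) *ᵥ w) = 0
    rw [hgiw, hπ']
  have h2 := step2 hK hr M hM w v₁ β π₀ h0 h1 h π hπw
  have h3 := TM_conj h2 (hM hg)
  rw [hgiw] at h3
  have e : kf β π' = kf β π ᵥ* (g : Matrix (Fin n) (Fin n) F) := by
    apply vec_ext_dot; intro v
    rw [← Matrix.dotProduct_mulVec, kf_dot, kf_dot]
    show β (π' v) = β (π' (((g⁻¹ : GL (Fin n) F) : Matrix (Fin n) (Fin n) F) *ᵥ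
      ((g : Matrix (Fin n) (Fin n) F) *ᵥ v)))
    rw [Matrix.mulVec_mulVec, ← Units.val_mul, inv_mul_cancel, Units.val_one, Matrix.one_mulVec]
  rw [e]; exact h3

/-- Step 4: all functionals. -/
lemma step4 {r : ℕ} (hK : Cfsg.Geo.IsFieldSubalgebra r K) (hr : 1 < r) (hn : r < n)
    (M : Subgroup (GL (Fin n) F)) (hM : klG K ≤ M) (w v₁ : Fin n → F) (hw : w ≠ 0)
    (β : ↥K →ₗ[F] F) (hβ : β ≠ 0) (π₀ : KFun K) (h0 : π₀ w = 0) (h1 : π₀ v₁ = 1)
    (h : TM M w (kf β π₀)) (w' : Fin n → F) (hw' : w' ≠ 0) (φ : Fin n → F)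
    (hφ : φ ⬝ᵥ w' = 0) : TM M w' φ := by
  have : Nonempty (Fin n) := ⟨⟨0, by omega⟩⟩
  obtain ⟨π, hπ⟩ := exists_kfun_repr hK β hβ φ
  have hφe : φ = kf β π := by
    apply vec_ext_dot; intro v; rw [kf_dot, hπ]
  by_cases hπw : π w' = 0
  · rw [hφe]; exact step3 hK hr hn M hM w v₁ hw β π₀ h0 h1 h w' hw' π hπw
  · obtain ⟨w₂, hw₂, hπw₂⟩ : ∃ w₂ : Fin n → F, w₂ ≠ 0 ∧ π w₂ = 0 := by
      have hker : LinearMap.ker π.toLin ≠ ⊥ := by
        intro hbot
        have hinj : Function.Injective π.toLin := LinearMap.ker_eq_bot.mp hbot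
        have := LinearMap.finrank_le_finrank_of_injective hinj
        rw [Module.finrank_fin_fun, hK.finrank_eq] at this
        omega
      obtain ⟨w₂, hw₂m, hw₂0⟩ := Submodule.exists_mem_ne_zero_of_ne_bot hker
      exact ⟨w₂, hw₂0, LinearMap.mem_ker.mp hw₂m⟩
    obtain ⟨c₀, hc₀⟩ : ∃ c₀ : ↥K, β c₀ = 1 := by
      have : ∃ c, β c ≠ 0 := by
        by_contra hcon; push Not at hcon
        exact hβ (LinearMap.ext hcon)
      obtain ⟨c, hc⟩ := this
      exact ⟨(β c)⁻¹ • c, by rw [map_smul, smul_eq_mul, inv_mul_cancel₀ hc]⟩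
    have hnot : ∀ k : ↥K, (k : Matrix (Fin n) (Fin n) F) *ᵥ w' ≠ w₂ := by
      intro k hk
      have h2 : π w₂ = k * π w' := by rw [← hk, π.map_k]
      rw [hπw₂] at h2
      have hk0 : k = 0 := by
        by_contra hk0
        obtain ⟨k', hk', hkk'⟩ := hK.inv k k.2 (fun h => hk0 (Subtype.ext h))
        apply hπw
        have hk'k : (⟨k', hk'⟩ : ↥K) * k = 1 := by
          apply Subtype.ext
          show k' * (k : Matrix (Fin n) (Fin n) F) = 1
          rw [hK.comm k' hk' k k.2]; exact hkk'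
        calc π w' = (⟨k', hk'⟩ * k) * π w' := by rw [hk'k, one_mul]
          _ = 0 := by rw [mul_assoc, ← h2, mul_zero]
      rw [hk0, ZeroMemClass.coe_zero, Matrix.zero_mulVec] at hk
      exact hw₂ hk.symm
    obtain ⟨π₁', hπ₁'w, hπ₁'w₂⟩ := exists_kfun_pair hK w' w₂ hnot
    let π₁ : KFun K := π₁'.smul hK.comm c₀
    have hπ₁w : π₁ w' = 0 := by
      show c₀ * π₁' w' = 0
      rw [hπ₁'w, mul_zero]
    have hπ₁w₂ : π₁ w₂ = c₀ := by
      show c₀ * π₁' w₂ = c₀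
      rw [hπ₁'w₂, mul_one]
    have hT1 : TM M w' (kf β π₁) := step3 hK hr hn M hM w v₁ hw β π₀ h0 h1 h w' hw' π₁ hπ₁w
    have hT2 : TM M w₂ φ := by
      rw [hφe]; exact step3 hK hr hn M hM w v₁ hw β π₀ h0 h1 h w₂ hw₂ π hπw₂
    refine TM_conj_diff hT1 hT2.mem ?_ ?_
    · rw [tvG_val, tv_mulVec, hφ, zero_smul, add_zero]
    · intro v
      rw [kf_dot, kf_dot, tvG_val, tv_mulVec, π₁.map_add, π₁.map_smul, hπ₁w₂, map_add, map_smul,
        hc₀, smul_eq_mul, mul_one, add_sub_cancel_left]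

/-- **P-T**: an `F`-transvection in `M ≥ klG K` gives `SL ≤ M`. -/
theorem sl_le_of_TM {r : ℕ} (hK : Cfsg.Geo.IsFieldSubalgebra r K) (hr : 1 < r) (hn : r < n)
    (M : Subgroup (GL (Fin n) F)) (hM : klG K ≤ M) (w ψ : Fin n → F) (hw : w ≠ 0) (hψ : ψ ≠ 0)
    (h : TM M w ψ) : Cfsg.Geo.specialLinear (Fin n) F ≤ M := by
  have hne : Nonempty (Fin n) := ⟨⟨0, by omega⟩⟩
  have hnt : Nontrivial (Fin n) := Fin.nontrivial_iff_two_le.mpr (by omega)
  -- Step 1
  obtain ⟨β, hβ, v₁, π₀, h0, h1, hT⟩ : ∃ β : ↥K →ₗ[F] F, β ≠ 0 ∧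
      ∃ (v₁ : Fin n → F) (π₀ : KFun K), π₀ w = 0 ∧ π₀ v₁ = 1 ∧ TM M w (kf β π₀) := by
    obtain ⟨v₁, hv₁⟩ : ∃ v₁ : Fin n → F, ψ ⬝ᵥ v₁ ≠ 0 := by
      by_contra hcon; push Not at hcon
      exact hψ (vec_ext_dot (fun v => by rw [hcon, zero_dotProduct]))
    by_cases hcase : ∃ k : ↥K, (k : Matrix (Fin n) (Fin n) F) *ᵥ w = v₁
    · obtain ⟨k, hk⟩ := hcase
      obtain ⟨v₁', hv₁'⟩ := exists_notMem_line hK hn w
      obtain ⟨π₀, h0, h1⟩ := exists_kfun_pair hK w v₁' hv₁'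
      refine ⟨dotAct K ψ w, ?_, v₁', π₀, h0, h1, ?_⟩
      · intro hz
        apply hv₁
        rw [← hk, ← dotAct_apply, hz, LinearMap.zero_apply]
      · refine TM_conj_diff h (hM (ktG_mem w π₀ h0)) ?_ ?_
        · rw [ktG_mulVec, h0, ZeroMemClass.coe_zero, Matrix.zero_mulVec, add_zero]
        · intro v
          rw [kf_dot, dotAct_apply, ktG_mulVec, dotProduct_add, add_sub_cancel_left]
    · push Not at hcase
      obtain ⟨π₀, h0, h1⟩ := exists_kfun_pair hK w v₁ hcase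
      obtain ⟨k₀, hk₀, hκ⟩ := exists_pow_ne_one hK hr
      obtain ⟨g, hg, hgv⟩ := exists_tor hK v₁ π₀ h1 k₀ hk₀
      set κ : ↥K := k₀ ^ (Fintype.card F - 1) with hκdef
      have hκ1 : ((κ - 1 : ↥K) : Matrix (Fin n) (Fin n) F) ≠ 0 := by
        intro hz
        apply hκ
        have : κ - 1 = 0 := Subtype.ext hz
        exact sub_eq_zero.mp this
      obtain ⟨κ', hκ', hκκ'⟩ := hK.inv _ (κ - 1).2 hκ1
      refine ⟨(dotAct K ψ v₁) ∘ₗ LinearMap.mulLeft F (κ - 1), ?_, v₁, π₀, h0, h1, ?_⟩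
      · intro hz
        apply hv₁
        have h2 := LinearMap.congr_fun hz ⟨κ', hκ'⟩
        rw [LinearMap.comp_apply, LinearMap.mulLeft_apply, dotAct_apply, LinearMap.zero_apply] at h2
        have h3 : (((κ - 1) * ⟨κ', hκ'⟩ : ↥K) : Matrix (Fin n) (Fin n) F) = 1 := hκκ'
        rw [h3, Matrix.one_mulVec] at h2
        exact h2
      · refine TM_conj_diff h (hM hg) ?_ ?_
        · rw [hgv, h0, mul_zero, ZeroMemClass.coe_zero, Matrix.zero_mulVec, add_zero]
        · intro v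
          rw [kf_dot, LinearMap.comp_apply, LinearMap.mulLeft_apply, dotAct_apply, hgv,
            dotProduct_add, add_sub_cancel_left]
  apply specialLinear_le_of_tv M
  intro v φ hφ t ht
  rcases eq_or_ne v 0 with rfl | hv
  · have : t = 1 := by
      apply Units.ext
      rw [ht, tv, Matrix.zero_vecMulVec, add_zero, Units.val_one]
    rw [this]; exact M.one_mem
  · exact (step4 hK hr hn M hM w v₁ hw β hβ π₀ h0 h1 hT v hv φ hφ).2 t ht

end Cfsg.Agent.Lib.Helper96.KLinT
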